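import Mathlib
import Cfsg.Agent.Lib.RealClifford.Lift
import Cfsg.Agent.Lib.LargeES.Struct3
import Cfsg.Agent.Lib.Techniques.MetaAut
import Cfsg.Prelude.Def_Transfer

/-!
# The Clifford-type group attached to the model and a group of isometries
-/

set_option autoImplicit false

namespace Cfsg.Agent.Lib.RealClifford

open Matrix

section

variable {K : Type*} [Group K] {U : Type*} [AddCommGroup U] [Module (ZMod 2) U]
variable {Y : Type} [Fintype Y] [DecidableEq Y] [Nonempty Y]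
variable {q : QuadraticForm (ZMod 2) U} (M : Model q Y) (ρ : Representation (ZMod 2) K U)

/-- The matrix `O` conjugates each operator to a signed operator, along `k`. -/
def Acts (O : Matrix Y Y ℝ) (k : K) : Prop :=
  ∀ u, ∃ t, O * M.p u = sg t • (M.p (ρ k u) * O)

variable {M ρ}

theorem Acts.mul {O₁ O₂ : Matrix Y Y ℝ} {k₁ k₂ : K} (h₁ : Acts M ρ O₁ k₁) (h₂ : Acts M ρ O₂ k₂) :
    Acts M ρ (O₁ * O₂) (k₁ * k₂) := by
  intro u
  obtain ⟨t₂, ht₂⟩ := h₂ u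
  obtain ⟨t₁, ht₁⟩ := h₁ (ρ k₂ u)
  refine ⟨t₁ + t₂, ?_⟩
  rw [Matrix.mul_assoc, ht₂, Matrix.mul_smul, ← Matrix.mul_assoc, ht₁, map_mul, Module.End.mul_apply,
    sg_add, Matrix.smul_mul, smul_smul, Matrix.mul_assoc, mul_comm]

theorem Acts.one_mat : Acts M ρ (1 : Matrix Y Y ℝ) (1 : K) := by
  intro u
  exact ⟨0, by simp⟩

theorem Acts.inv {O O' : Matrix Y Y ℝ} {k : K} (h : Acts M ρ O k) (h1 : O' * O = 1) (h2 : O * O' = 1) :
    Acts M ρ O' k⁻¹ := by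
  intro u
  obtain ⟨t, ht⟩ := h (ρ k⁻¹ u)
  have hk : ρ k (ρ k⁻¹ u) = u := by
    rw [← Module.End.mul_apply, ← map_mul, mul_inv_cancel, map_one, Module.End.one_apply]
  rw [hk] at ht
  refine ⟨t, ?_⟩
  calc O' * M.p u = sg t • (O' * (sg t • (M.p u * O)) * O') := by
        simp only [Matrix.mul_smul, Matrix.smul_mul, smul_smul, sg_mul_self, one_smul, Matrix.mul_assoc, h2,
          Matrix.mul_one]
    _ = sg t • (O' * (O * M.p (ρ k⁻¹ u)) * O') := by rw [ht]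
    _ = sg t • (M.p (ρ k⁻¹ u) * O') := by
        rw [← Matrix.mul_assoc, h1, Matrix.one_mul]

variable (M ρ)

/-- The group of orthogonal operators normalizing the signed operators along `K`. -/
def Rr : Subgroup (Matrix Y Y ℝ)ˣ where
  carrier := {O | ((O : Matrix Y Y ℝ))ᵀ * (O : Matrix Y Y ℝ) = 1 ∧ ∃ k, Acts M ρ (O : Matrix Y Y ℝ) k}
  mul_mem' := by
    rintro O₁ O₂ ⟨h₁, k₁, hk₁⟩ ⟨h₂, k₂, hk₂⟩
    refine ⟨?_, k₁ * k₂, hk₁.mul hk₂⟩
    rw [Units.val_mul, Matrix.transpose_mul, Matrix.mul_assoc, ← Matrix.mul_assoc _ (O₁ : Matrix Y Y ℝ), h₁,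
      Matrix.one_mul, h₂]
  one_mem' := ⟨by simp, 1, Acts.one_mat⟩
  inv_mem' := by
    rintro O ⟨h, k, hk⟩
    have h2 : ((O⁻¹ : (Matrix Y Y ℝ)ˣ) : Matrix Y Y ℝ) * (O : Matrix Y Y ℝ) = 1 := by
      rw [← Units.val_mul, inv_mul_cancel, Units.val_one]
    have h3 : (O : Matrix Y Y ℝ) * ((O⁻¹ : (Matrix Y Y ℝ)ˣ) : Matrix Y Y ℝ) = 1 := by
      rw [← Units.val_mul, mul_inv_cancel, Units.val_one]
    have h4 : ((O⁻¹ : (Matrix Y Y ℝ)ˣ) : Matrix Y Y ℝ) = (O : Matrix Y Y ℝ)ᵀ := by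
      calc ((O⁻¹ : (Matrix Y Y ℝ)ˣ) : Matrix Y Y ℝ)
          = ((O : Matrix Y Y ℝ)ᵀ * (O : Matrix Y Y ℝ)) * ((O⁻¹ : (Matrix Y Y ℝ)ˣ) : Matrix Y Y ℝ) := by
            rw [h, Matrix.one_mul]
        _ = (O : Matrix Y Y ℝ)ᵀ := by rw [Matrix.mul_assoc, h3, Matrix.mul_one]
    refine ⟨?_, k⁻¹, hk.inv h2 h3⟩
    rw [h4, Matrix.transpose_transpose, mul_eq_one_comm.mp h]

variable {M ρ}

theorem Rr_mul_tr (O : Rr M ρ) : ((O : (Matrix Y Y ℝ)ˣ) : Matrix Y Y ℝ) * ((O : (Matrix Y Y ℝ)ˣ) : Matrix Y Y ℝ)ᵀ = 1 :=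
  mul_eq_one_comm.mp O.2.1

theorem Acts.unique (hsep : ∀ u : U, (∀ v, QuadraticMap.polar q u v = 0) → u = 0)
    (hρ : Function.Injective ρ) {O : Matrix Y Y ℝ} (hO : O * Oᵀ = 1) {k k' : K}
    (h : Acts M ρ O k) (h' : Acts M ρ O k') : k = k' := by
  apply hρ
  ext u
  obtain ⟨t, ht⟩ := h u
  obtain ⟨t', ht'⟩ := h' u
  have h1 : sg t • (M.p (ρ k u) * O) = sg t' • (M.p (ρ k' u) * O) := ht.symm.trans ht'
  have h2 : sg t • M.p (ρ k u) = sg t' • M.p (ρ k' u) := by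
    have := congrArg (fun X => X * Oᵀ) h1
    simpa [Matrix.smul_mul, Matrix.mul_assoc, hO] using this
  exact (M.p_inj hsep h2).1

variable (M ρ)

/-- The map to the acting group. -/
noncomputable def piHat (hsep : ∀ u : U, (∀ v, QuadraticMap.polar q u v = 0) → u = 0)
    (hρ : Function.Injective ρ) : Rr M ρ →* K :=
  MonoidHom.mk' (fun O => Classical.choose O.2.2) (by
    intro a b
    have ha := Classical.choose_spec a.2.2
    have hb := Classical.choose_spec b.2.2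
    have hab := Classical.choose_spec (a * b).2.2
    exact Acts.unique hsep hρ (Rr_mul_tr (a * b)) hab (ha.mul hb))

variable {M ρ}
variable (hsep : ∀ u : U, (∀ v, QuadraticMap.polar q u v = 0) → u = 0) (hρ : Function.Injective ρ)

theorem piHat_spec (O : Rr M ρ) : Acts M ρ ((O : (Matrix Y Y ℝ)ˣ) : Matrix Y Y ℝ) (piHat M ρ hsep hρ O) :=
  Classical.choose_spec O.2.2

theorem piHat_eq (O : Rr M ρ) {k : K} (h : Acts M ρ ((O : (Matrix Y Y ℝ)ˣ) : Matrix Y Y ℝ) k) :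
    piHat M ρ hsep hρ O = k :=
  Acts.unique hsep hρ (Rr_mul_tr O) (piHat_spec hsep hρ O) h

theorem acts_of_signed (t : ZMod 2) (a : U) :
    Acts M ρ (sg t • M.p a) (1 : K) := by
  intro u
  refine ⟨QuadraticMap.polar q a u, ?_⟩
  rw [map_one, Module.End.one_apply, Matrix.smul_mul, M.p_comm, Matrix.mul_smul, smul_comm]

/-- The unit attached to a signed operator. -/
noncomputable def unitOf (M : Model q Y) (t : ZMod 2) (a : U) : (Matrix Y Y ℝ)ˣ where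
  val := sg t • M.p a
  inv := sg t • (M.p a)ᵀ
  val_inv := by
    rw [Matrix.smul_mul, Matrix.mul_smul, smul_smul, sg_mul_self, one_smul, M.mul_tr]
  inv_val := by
    rw [Matrix.smul_mul, Matrix.mul_smul, smul_smul, sg_mul_self, one_smul, M.tr_mul]

theorem unitOf_mem (t : ZMod 2) (a : U) : unitOf M t a ∈ Rr M ρ := by
  refine ⟨?_, 1, acts_of_signed t a⟩
  change (sg t • M.p a)ᵀ * (sg t • M.p a) = 1
  rw [Matrix.transpose_smul, Matrix.smul_mul, Matrix.mul_smul, smul_smul, sg_mul_self, one_smul, M.tr_mul]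

theorem mem_ker_iff [Module.Finite (ZMod 2) U] (hnd : (QuadraticMap.polarBilin q).Nondegenerate) (O : Rr M ρ) :
    O ∈ (piHat M ρ hsep hρ).ker ↔
      ∃ a t, ((O : (Matrix Y Y ℝ)ˣ) : Matrix Y Y ℝ) = sg t • M.p a := by
  constructor
  · intro h
    have h1 := piHat_spec hsep hρ O
    rw [MonoidHom.mem_ker.mp h] at h1
    refine M.eq_of_conj hnd O.2.1 fun u => ?_
    obtain ⟨t, ht⟩ := h1 u
    rw [map_one, Module.End.one_apply] at ht
    exact ⟨t, ht⟩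
  · rintro ⟨a, t, h⟩
    rw [MonoidHom.mem_ker]
    apply piHat_eq
    rw [h]
    exact acts_of_signed t a

theorem piHat_surjective [Module.Finite (ZMod 2) U] (hq : ∀ (k : K) (u : U), q (ρ k u) = q u) :
    Function.Surjective (piHat M ρ hsep hρ) := by
  intro k
  obtain ⟨O, hO, hact⟩ := M.lift hsep (ρ k) (hq k)
  have hO' : O * Oᵀ = 1 := mul_eq_one_comm.mp hO
  refine ⟨⟨⟨O, Oᵀ, hO', hO⟩, hO, k, hact⟩, ?_⟩
  exact piHat_eq hsep hρ _ hact

end

end Cfsg.Agent.Lib.RealClifford
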