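import Mathlib
import Cfsg.Agent.Lib.RealClifford.Group

/-!
# The extraspecial normal subgroup of the Clifford-type group
-/

set_option autoImplicit false

namespace Cfsg.Agent.Lib.RealClifford

open Matrix

section

variable {K : Type*} [Group K] {U : Type*} [AddCommGroup U] [Module (ZMod 2) U] [Module.Finite (ZMod 2) U]
variable {Y : Type} [Fintype Y] [DecidableEq Y] [Nonempty Y]
variable {q : QuadraticForm (ZMod 2) U} {M : Model q Y} {ρ : Representation (ZMod 2) K U}
variable {hsep : ∀ u : U, (∀ v, QuadraticMap.polar q u v = 0) → u = 0} {hρ : Function.Injective ρ}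

/-- The matrix of an element of the kernel. -/
def mat (x : (piHat M ρ hsep hρ).ker) : Matrix Y Y ℝ :=
  (((x : Rr M ρ) : (Matrix Y Y ℝ)ˣ) : Matrix Y Y ℝ)

theorem mat_mul (x y : (piHat M ρ hsep hρ).ker) : mat (x * y) = mat x * mat y := rfl

theorem mat_one : mat (1 : (piHat M ρ hsep hρ).ker) = 1 := rfl

theorem mat_inj {x y : (piHat M ρ hsep hρ).ker} (h : mat x = mat y) : x = y :=
  Subtype.ext (Subtype.ext (Units.ext h))

variable (hnd : (QuadraticMap.polarBilin q).Nondegenerate)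
include hnd

theorem mat_spec (x : (piHat M ρ hsep hρ).ker) : ∃ a t, mat x = sg t • M.p a :=
  (mem_ker_iff hsep hρ hnd x.1).1 x.2

/-- The vector attached to an element of the kernel. -/
noncomputable def chiU (x : (piHat M ρ hsep hρ).ker) : U := Classical.choose (mat_spec hnd x)

theorem chiU_spec (x : (piHat M ρ hsep hρ).ker) : ∃ t, mat x = sg t • M.p (chiU hnd x) :=
  Classical.choose_spec (mat_spec hnd x)

theorem chiU_eq {x : (piHat M ρ hsep hρ).ker} {a : U} {t : ZMod 2} (h : mat x = sg t • M.p a) :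
    chiU hnd x = a := by
  obtain ⟨t', ht'⟩ := chiU_spec hnd x
  exact (M.p_inj hsep (ht'.symm.trans h)).1

theorem chiU_mul (x y : (piHat M ρ hsep hρ).ker) : chiU hnd (x * y) = chiU hnd x + chiU hnd y := by
  obtain ⟨t, ht⟩ := chiU_spec hnd x
  obtain ⟨t', ht'⟩ := chiU_spec hnd y
  apply chiU_eq hnd (t := t + t' + M.s (chiU hnd x) (chiU hnd y))
  rw [mat_mul, ht, ht', Matrix.smul_mul, Matrix.mul_smul, M.p_mul, sg_add, sg_add, smul_smul, smul_smul]

/-- The element of the kernel attached to a sign and a vector. -/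
noncomputable def elt (t : ZMod 2) (a : U) : (piHat M ρ hsep hρ).ker :=
  ⟨⟨unitOf M t a, unitOf_mem t a⟩, (mem_ker_iff hsep hρ hnd _).2 ⟨a, t, rfl⟩⟩

theorem mat_elt (t : ZMod 2) (a : U) : mat (elt (M := M) (ρ := ρ) (hsep := hsep) (hρ := hρ) hnd t a) = sg t • M.p a := rfl

theorem chiU_elt (t : ZMod 2) (a : U) : chiU hnd (elt (M := M) (ρ := ρ) (hsep := hsep) (hρ := hρ) hnd t a) = a :=
  chiU_eq hnd (mat_elt hnd t a)

/-- The map to the quadratic space. -/
noncomputable def chi : (piHat M ρ hsep hρ).ker →* Multiplicative U :=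
  MonoidHom.mk' (fun x => Multiplicative.ofAdd (chiU hnd x)) (by
    intro a b
    rw [chiU_mul, ofAdd_add])

theorem chi_apply (x : (piHat M ρ hsep hρ).ker) : chi hnd x = Multiplicative.ofAdd (chiU hnd x) := rfl

theorem chi_surj : Function.Surjective (chi (M := M) (ρ := ρ) (hsep := hsep) (hρ := hρ) hnd) := by
  intro u
  refine ⟨elt hnd 0 (Multiplicative.toAdd u), ?_⟩
  rw [chi_apply, chiU_elt]
  rfl

theorem mem_ker_chi (x : (piHat M ρ hsep hρ).ker) : x ∈ (chi hnd).ker ↔ chiU hnd x = 0 := by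
  rw [MonoidHom.mem_ker, chi_apply]
  exact ofAdd_eq_one

theorem scalar_of_chi {x : (piHat M ρ hsep hρ).ker} (h : chiU hnd x = 0) : ∃ t, mat x = sg t • 1 := by
  obtain ⟨t, ht⟩ := chiU_spec hnd x
  rw [h, M.p_zero] at ht
  exact ⟨t, ht⟩

theorem ker_eq_center : (chi (M := M) (ρ := ρ) (hsep := hsep) (hρ := hρ) hnd).ker = Subgroup.center _ := by
  ext x
  rw [mem_ker_chi, Subgroup.mem_center_iff]
  constructor
  · intro h g
    obtain ⟨t, ht⟩ := scalar_of_chi hnd h
    apply mat_inj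
    rw [mat_mul, mat_mul, ht, Matrix.smul_mul, Matrix.mul_smul, Matrix.one_mul, Matrix.mul_one]
  · intro h
    obtain ⟨t, ht⟩ := chiU_spec hnd x
    apply hsep
    intro v
    have h1 := congrArg mat (h (elt hnd 0 v))
    rw [mat_mul, mat_mul, ht, mat_elt, sg_zero, one_smul, Matrix.smul_mul, Matrix.mul_smul] at h1
    have h2 : M.p v * M.p (chiU hnd x) = M.p (chiU hnd x) * M.p v := by
      have h3 := congrArg (fun X => sg t • X) h1
      simpa [smul_smul, sg_mul_self] using h3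
    have h4 := M.p_comm (chiU hnd x) v
    rw [← h2] at h4
    have h5 : (M.p v * M.p (chiU hnd x)) * ((M.p (chiU hnd x))ᵀ * (M.p v)ᵀ) = 1 := by
      calc (M.p v * M.p (chiU hnd x)) * ((M.p (chiU hnd x))ᵀ * (M.p v)ᵀ)
          = M.p v * (M.p (chiU hnd x) * (M.p (chiU hnd x))ᵀ) * (M.p v)ᵀ := by simp only [Matrix.mul_assoc]
        _ = 1 := by rw [M.mul_tr, Matrix.mul_one, M.mul_tr]
    have h6 : (1 : ℝ) • (M.p v * M.p (chiU hnd x)) = sg (QuadraticMap.polar q (chiU hnd x) v) • (M.p v * M.p (chiU hnd x)) := by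
      rw [one_smul]; exact h4
    have h7 := smul_cancel h5 h6
    have h8 : sg (QuadraticMap.polar q (chiU hnd x) v) = sg 0 := by rw [sg_zero]; exact h7.symm
    exact sg_inj h8

theorem card_ker_chi : Nat.card (chi (M := M) (ρ := ρ) (hsep := hsep) (hρ := hρ) hnd).ker = 2 := by
  let f : ZMod 2 → (chi (M := M) (ρ := ρ) (hsep := hsep) (hρ := hρ) hnd).ker := fun t =>
    ⟨elt hnd t 0, by rw [mem_ker_chi, chiU_elt]⟩
  have hf : Function.Bijective f := by
    constructor
    · intro s t h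
      have h0 : (f s).1 = (f t).1 := congrArg Subtype.val h
      have h1 := congrArg mat h0
      simp only [f, mat_elt] at h1
      exact (M.p_inj hsep h1).2
    · rintro ⟨x, hx⟩
      rw [mem_ker_chi] at hx
      obtain ⟨t, ht⟩ := chiU_spec hnd x
      refine ⟨t, Subtype.ext (mat_inj ?_)⟩
      simp only [f, mat_elt]
      rw [ht, hx]
  rw [← Nat.card_eq_of_bijective f hf, Nat.card_zmod]

theorem mat_mul_self (x : (piHat M ρ hsep hρ).ker) : mat (x * x) = sg (q (chiU hnd x)) • 1 := by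
  obtain ⟨t, ht⟩ := chiU_spec hnd x
  rw [mat_mul, ht, Matrix.smul_mul, Matrix.mul_smul, M.mul_self, smul_smul, smul_smul,
    sg_mul_self, one_mul]

theorem mul_self_eq_one_iff (x : (piHat M ρ hsep hρ).ker) : x * x = 1 ↔ q (chiU hnd x) = 0 := by
  constructor
  · intro h
    have h1 := mat_mul_self hnd x
    rw [h, mat_one] at h1
    have h2 : sg (q (chiU hnd x)) = sg 0 := by
      rw [sg_zero]
      exact (smul_one_inj (c := 1) (d := sg (q (chiU hnd x))) (by rw [one_smul]; exact h1)).symm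
    exact sg_inj h2
  · intro h
    apply mat_inj
    rw [mat_mul_self hnd, h, sg_zero, one_smul, mat_one]

theorem finite_ker [Finite U] : Finite (piHat M ρ hsep hρ).ker := by
  classical
  have hs : ∀ x : (piHat M ρ hsep hρ).ker, ∃ t, mat x = sg t • M.p (chiU hnd x) := chiU_spec hnd
  choose sgn hsgn using hs
  refine Finite.of_injective (fun x => (sgn x, chiU hnd x)) ?_
  intro x y h
  simp only [Prod.mk.injEq] at h
  apply mat_inj
  rw [hsgn x, hsgn y, h.1, h.2]

theorem chiU_conj (r : Rr M ρ) (x : (piHat M ρ hsep hρ).ker) (y : (piHat M ρ hsep hρ).ker)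
    (hy : (y : Rr M ρ) = r * x * r⁻¹) : chiU hnd y = ρ (piHat M ρ hsep hρ r) (chiU hnd x) := by
  obtain ⟨t, ht⟩ := chiU_spec hnd x
  obtain ⟨t', ht'⟩ := piHat_spec hsep hρ r (chiU hnd x)
  apply chiU_eq hnd (t := t + t')
  have h1 : mat y = ((r : (Matrix Y Y ℝ)ˣ) : Matrix Y Y ℝ) * mat x * ((r⁻¹ : Rr M ρ) : (Matrix Y Y ℝ)ˣ) := by
    unfold mat
    rw [hy]
    rfl
  have h2 : ((r : (Matrix Y Y ℝ)ˣ) : Matrix Y Y ℝ) * ((r⁻¹ : Rr M ρ) : (Matrix Y Y ℝ)ˣ) = 1 := by
    have h3 : ((r * r⁻¹ : Rr M ρ) : (Matrix Y Y ℝ)ˣ) = 1 := by rw [mul_inv_cancel]; rfl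
    have h4 := congrArg (fun z : (Matrix Y Y ℝ)ˣ => (z : Matrix Y Y ℝ)) h3
    simpa using h4
  rw [h1, ht, Matrix.mul_smul, ht', Matrix.smul_mul, Matrix.smul_mul, Matrix.mul_assoc, h2, Matrix.mul_one,
    smul_smul, sg_add, mul_comm]

end

end Cfsg.Agent.Lib.RealClifford
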